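import Cfsg.Agent.OD.Pre
import Cfsg.Agent.H6.G25B
import Cfsg.Agent.H6.G25DA.D0
set_option autoImplicit false
set_option maxRecDepth 100000
set_option Elab.async false
set_option linter.all false
namespace CfH6.G25D
open CfH6 CfH6.D MulAction
theorem iD0 : Rng (chkInvT (fun x => fD (Nat.succ x)) G25B.il 9 3906) 0 3906 := rng_of 0 30 66 3906 (by decide +kernel)
theorem rD0 : Rng (chkRelT (fun x => fD (Nat.succ x)) G25B.rels) 0 2560 := rng_of 0 20 0 2560 (by decide +kernel)
theorem rD1 : Rng (chkRelT (fun x => fD (Nat.succ x)) G25B.rels) 2560 3906 := rng_of 2560 10 66 3906 (by decide +kernel)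
theorem dD0 : Rng (chkId fD) 0 3906 := rng_of 0 30 66 3906 (by decide +kernel)
theorem sD0 : Rng (chkSl fD sa sb 30 66) 10 64 := rng_of 10 0 54 64 (by decide +kernel)
end CfH6.G25D
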